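import Cfsg.Agent.SylowNum17.Degree18
import Cfsg.Agent.S0730
import Cfsg.Agent.S0742
import Mathlib.FieldTheory.Finite.GaloisField

/-!
Groups with trivial centre whose Sylow numbers are 18, 136 and 153.
-/

set_option autoImplicit false

namespace Cfsg.Agent.SylowNum17

open MulAction Subgroup

section Elements

/-- An element of order 9 of `SL(2, 17)`. -/
def elt9base : Matrix.SpecialLinearGroup (Fin 2) (ZMod 17) :=
  ⟨!![(7 : ZMod 17), 16; 1, 0], by decide⟩

theorem elt9base_cube : (elt9base ^ 3).1 0 1 ≠ (0 : ZMod 17) := by decide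

variable (K : Type*) [Field K]

/-- An element of order 9 of `SL(2, K)` for a field with 17 elements. -/
def elt9 (e : ZMod 17 →+* K) : Matrix.SpecialLinearGroup (Fin 2) K :=
  Matrix.SpecialLinearGroup.map e elt9base

theorem elt9_pow (e : ZMod 17 →+* K) : elt9 K e ^ 9 = 1 := by
  rw [elt9, ← map_pow]
  have : elt9base ^ 9 = 1 := by decide
  rw [this, map_one]

theorem elt9_cube (e : ZMod 17 →+* K) :
    ((elt9 K e ^ 3 : Matrix.SpecialLinearGroup (Fin 2) K) : Matrix (Fin 2) (Fin 2) K) 0 1 ≠ 0 := by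
  rw [elt9, ← map_pow]
  intro h
  have h' : e ((elt9base ^ 3).1 0 1) = 0 := h
  haveI : Fact (Nat.Prime 17) := ⟨by norm_num⟩
  rw [map_eq_zero] at h'
  exact elt9base_cube h'

theorem exists_order_nine_psl (e : ZMod 17 →+* K) :
    ∃ x : Matrix.ProjectiveSpecialLinearGroup (Fin 2) K, orderOf x = 9 := by
  refine ⟨QuotientGroup.mk (elt9 K e), ?_⟩
  haveI : Fact (Nat.Prime 3) := ⟨by norm_num⟩
  refine orderOf_eq_prime_pow (p := 3) (n := 1) ?_ ?_
  · rw [← QuotientGroup.mk_pow, QuotientGroup.eq_one_iff, Matrix.SpecialLinearGroup.mem_center_iff]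
    rintro ⟨r, -, hr⟩
    have := congrFun (congrFun hr 0) 1
    apply elt9_cube K e
    rw [pow_one] at this
    rw [← this]
    simp
  · rw [← QuotientGroup.mk_pow]
    show QuotientGroup.mk (elt9 K e ^ 9) = 1
    rw [elt9_pow, QuotientGroup.mk_one]

theorem exists_order_nine_pgl (e : ZMod 17 →+* K) :
    ∃ x : Matrix.ProjGenLinGroup (Fin 2) K, orderOf x = 9 := by
  show ∃ x : GL (Fin 2) K ⧸ Subgroup.center (GL (Fin 2) K), orderOf x = 9
  refine ⟨QuotientGroup.mk (Matrix.SpecialLinearGroup.toGL (elt9 K e)), ?_⟩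
  haveI : Fact (Nat.Prime 3) := ⟨by norm_num⟩
  refine orderOf_eq_prime_pow (p := 3) (n := 1) ?_ ?_
  · rw [← QuotientGroup.mk_pow, QuotientGroup.eq_one_iff,
      Matrix.GeneralLinearGroup.mem_center_iff_val_mem_range_scalar, ← map_pow]
    rintro ⟨r, hr⟩
    have := congrFun (congrFun hr 0) 1
    apply elt9_cube K e
    rw [pow_one] at this
    simpa using this.symm
  · rw [← QuotientGroup.mk_pow]
    show QuotientGroup.mk (Matrix.SpecialLinearGroup.toGL (elt9 K e) ^ 9) = 1
    rw [← map_pow, elt9_pow, map_one, QuotientGroup.mk_one]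

end Elements

theorem map_center_equiv {A B : Type*} [Group A] [Group B] (e : A ≃* B) :
    (Subgroup.center A).map (e : A →* B) = Subgroup.center B := by
  ext b
  rw [Subgroup.mem_center_iff]
  constructor
  · rintro ⟨a, ha, rfl⟩ c
    obtain ⟨c, rfl⟩ := e.surjective c
    show e c * e a = e a * e c
    rw [← map_mul, ← map_mul, Subgroup.mem_center_iff.1 ha c]
  · intro hb
    obtain ⟨a, rfl⟩ := e.surjective b
    refine ⟨a, Subgroup.mem_center_iff.2 fun c => e.injective ?_, rfl⟩
    rw [map_mul, map_mul]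
    exact hb (e c)

/-- `SL(2)` over isomorphic fields. -/
def slEquiv {A B : Type*} [CommRing A] [CommRing B] (φ : A ≃+* B) :
    Matrix.SpecialLinearGroup (Fin 2) A ≃* Matrix.SpecialLinearGroup (Fin 2) B :=
  { Matrix.SpecialLinearGroup.map (n := Fin 2) φ.toRingHom with
    invFun := Matrix.SpecialLinearGroup.map (n := Fin 2) φ.symm.toRingHom
    left_inv := fun M => by ext i j; exact φ.symm_apply_apply _
    right_inv := fun M => by ext i j; exact φ.apply_symm_apply _ }

section Main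

variable {G : Type*} [Group G] [Finite G]

/-- If two groups have equally many Sylow subgroups, the kernel of a surjection between them
normalises each Sylow subgroup. -/
theorem smul_eq_of_card_eq {G' : Type*} [Group G'] {f : G →* G'} (hf : Function.Surjective f)
    {p : ℕ} [Fact p.Prime] (h : Nat.card (Sylow p G) ≤ Nat.card (Sylow p G')) {k : G}
    (hk : k ∈ f.ker) (S : Sylow p G) : k • S = S := by
  haveI : Finite G' := Finite.of_surjective f hf
  refine ((Sylow.mapSurjective_surjective hf p).bijective_of_nat_card_le h).1 ?_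
  apply Sylow.ext
  rw [Sylow.coe_mapSurjective, Sylow.coe_mapSurjective]
  ext y
  simp only [Subgroup.mem_map, Sylow.coe_subgroup_smul, Subgroup.mem_pointwise_smul_iff_inv_smul_mem]
  have hk' : f k = 1 := hk
  constructor
  · rintro ⟨x, hx, rfl⟩
    exact ⟨_, hx, by simp [hk']⟩
  · rintro ⟨x, hx, rfl⟩
    refine ⟨k * x * k⁻¹, ?_, by simp [hk']⟩
    simpa [mul_assoc] using hx

theorem card_sylow_le_of_surjective {G' : Type*} [Group G'] {f : G →* G'}
    (hf : Function.Surjective f) (p : ℕ) [Fact p.Prime] :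
    Nat.card (Sylow p G') ≤ Nat.card (Sylow p G) :=
  Nat.card_le_card_of_surjective _ (Sylow.mapSurjective_surjective hf p)

theorem smul_eq_iff_mem_normalizer {p : ℕ} (k : G) (S : Sylow p G) :
    k • S = S ↔ k ∈ normalizer ((S : Subgroup G) : Set G) := by
  exact Sylow.smul_eq_iff_mem_normalizer

/-- Commutators between a subgroup and something normalising it. -/
theorem comm_mem {k x : G} {S : Subgroup G} (hk : k ∈ normalizer (S : Set G)) (hx : x ∈ S) :
    k * x * k⁻¹ * x⁻¹ ∈ S :=
  S.mul_mem ((Subgroup.mem_normalizer_iff.1 hk x).1 hx) (S.inv_mem hx)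

theorem eq_one_of_isPGroup {p q : ℕ} [Fact p.Prime] [Fact q.Prime] (hpq : p ≠ q)
    {S T : Subgroup G} (hS : IsPGroup p ↥S) (hT : IsPGroup q ↥T) {x : G} (h1 : x ∈ S)
    (h2 : x ∈ T) : x = 1 := by
  have := (IsPGroup.disjoint_of_ne p q hpq S T hS hT).le_bot ⟨h1, h2⟩
  simpa using this

variable (K : Subgroup G) [K.Normal]

/-- The intersection of `K` with a Sylow subgroup is trivial when `K` normalises every Sylow
subgroup for the primes dividing the order of `G`, and the centre is trivial. -/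
theorem inf_sylow_eq_bot (hZ : Subgroup.center G = ⊥)
    (hall : ∀ s : ℕ, s.Prime → s ∣ Nat.card G → ∀ S : Sylow s G,
      K ≤ normalizer ((S : Subgroup G) : Set G))
    {r : ℕ} [Fact r.Prime] (hr : r ∣ Nat.card G) (S : Sylow r G) : K ⊓ (S : Subgroup G) = ⊥ := by
  classical
  set A : Subgroup G := K ⊓ (S : Subgroup G) with hA
  -- every Sylow subgroup meets `K` in `A`
  have hsame : ∀ S' : Sylow r G, K ⊓ (S' : Subgroup G) ≤ A := by
    intro S'
    refine le_inf inf_le_left ?_
    have hp : IsPGroup r ↥(K ⊓ (S' : Subgroup G) : Subgroup G) := IsPGroup.to_le S'.2 inf_le_right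
    have h1 : IsPGroup r ↥((K ⊓ (S' : Subgroup G)) ⊔ (S : Subgroup G) : Subgroup G) :=
      hp.to_sup_of_normal_right' S.2 (inf_le_left.trans (hall r Fact.out hr S))
    calc K ⊓ (S' : Subgroup G) ≤ (K ⊓ (S' : Subgroup G)) ⊔ (S : Subgroup G) := le_sup_left
      _ = S := S.3 h1 le_sup_right
  have hAn : A.Normal := by
    refine ⟨fun a ha g => hsame (g • S) ⟨Subgroup.Normal.conj_mem inferInstance a ha.1 g, ?_⟩⟩
    show g * a * g⁻¹ ∈ ((g • S : Sylow r G) : Subgroup G)
    rw [Sylow.coe_subgroup_smul, Subgroup.mem_pointwise_smul_iff_inv_smul_mem]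
    have e : g⁻¹ * (g * a * g⁻¹) * g = a := by group
    rw [← map_inv, MulAut.smul_def, MulAut.conj_apply, inv_inv, e]
    exact ha.2
  have hAp : IsPGroup r ↥A := S.2.to_le inf_le_right
  by_contra hne
  -- an element of `A` centralised by `S`
  haveI : Finite ↥A := inferInstance
  let ψ : ↥(S : Subgroup G) →* MulAut ↥A :=
    (MulAut.conjNormal (H := A)).comp (S : Subgroup G).subtype
  letI : MulAction ↥(S : Subgroup G) ↥A := MulAction.compHom _ ψ
  have hcA : r ∣ Nat.card ↥A := by
    obtain ⟨n, hn⟩ := hAp.exists_card_eq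
    rw [hn]
    rcases n with _ | n
    · exact absurd (Subgroup.card_eq_one.1 (by simpa using hn)) hne
    · exact dvd_pow_self r (Nat.succ_ne_zero n)
  obtain ⟨z, hz, hz1⟩ := S.2.exists_fixed_point_of_prime_dvd_card_of_fixed_point (α := ↥A) hcA
    (a := 1) (fun s => show ψ s 1 = 1 from map_one _)
  have hzS : ∀ s ∈ (S : Subgroup G), Commute s (z : G) := by
    intro s hs
    have e : ψ ⟨s, hs⟩ z = z := hz ⟨s, hs⟩
    have e' := congrArg Subtype.val e
    simp only [ψ, MonoidHom.comp_apply, Subgroup.coe_subtype, MulAut.conjNormal_apply] at e'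
    show s * (z : G) = z * s
    exact mul_inv_eq_iff_eq_mul.1 e'
  -- hence it is central
  have hcent : Subgroup.centralizer ({(z : G)} : Set G) = ⊤ := by
    refine Subgroup.eq_top_of_card_eq _ (Nat.dvd_antisymm (Subgroup.card_subgroup_dvd_card _) ?_)
    rw [Nat.dvd_iff_prime_pow_dvd_dvd]
    intro s k hs hsk
    rcases Nat.eq_zero_or_pos k with rfl | hk
    · simp
    haveI : Fact s.Prime := ⟨hs⟩
    have hsd : s ∣ Nat.card G := (dvd_pow_self s hk.ne').trans hsk
    have key : ∃ T : Sylow s G, (T : Subgroup G) ≤ Subgroup.centralizer ({(z : G)} : Set G) := by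
      by_cases hsr : s = r
      · subst hsr
        exact ⟨S, fun x hx => Subgroup.mem_centralizer_singleton_iff.2 (hzS x hx).eq⟩
      · obtain ⟨T⟩ := (inferInstance : Nonempty (Sylow s G))
        refine ⟨T, fun x hx => Subgroup.mem_centralizer_singleton_iff.2 ?_⟩
        have h1 : (z : G) * x * (z : G)⁻¹ * x⁻¹ ∈ (T : Subgroup G) :=
          comm_mem (hall s hs hsd T z.2.1) hx
        have h2 : (z : G) * x * (z : G)⁻¹ * x⁻¹ ∈ A := by
          have : x * (z : G)⁻¹ * x⁻¹ ∈ A := hAn.conj_mem _ (A.inv_mem z.2) x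
          simpa [mul_assoc] using A.mul_mem z.2 this
        have h3 := eq_one_of_isPGroup hsr T.2 hAp h1 h2
        rw [mul_inv_eq_one, mul_inv_eq_iff_eq_mul] at h3
        exact h3.symm
    obtain ⟨T, hT⟩ := key
    exact (T.pow_dvd_card_of_pow_dvd_card hsk).trans (Subgroup.card_dvd_of_le hT)
  have : (z : G) ∈ Subgroup.center G := by
    rw [Subgroup.mem_center_iff]
    intro g
    have : g ∈ Subgroup.centralizer ({(z : G)} : Set G) := by rw [hcent]; exact mem_top g
    exact Subgroup.mem_centralizer_singleton_iff.1 this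
  rw [hZ, Subgroup.mem_bot] at this
  exact hz1 (Subtype.ext this.symm)

theorem main {F : Type*} [Field F] [Fintype F] (hF : Fintype.card F = 17)
    (hZ : Subgroup.center G = ⊥)
    (hNS : {c : ℕ | ∃ r : ℕ, r.Prime ∧ r ∣ Nat.card G ∧ c = Nat.card (Sylow r G)} =
      ({18, 136, 153} : Set ℕ)) :
    Nonempty (G ≃* Matrix.ProjectiveSpecialLinearGroup (Fin 2) F) ∨
      Nonempty (G ≃* Matrix.ProjGenLinGroup (Fin 2) F) := by
  classical
  haveI f17 : Fact (Nat.Prime 17) := ⟨by norm_num⟩
  haveI f2 : Fact (Nat.Prime 2) := ⟨by norm_num⟩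
  haveI f3 : Fact (Nat.Prime 3) := ⟨by norm_num⟩
  have hpr : ∀ r : ℕ, r.Prime → r ∣ Nat.card G →
      (Nat.card (Sylow r G) = 18 ∧ r = 17) ∨ (Nat.card (Sylow r G) = 136 ∧ (r = 3 ∨ r = 5)) ∨
        (Nat.card (Sylow r G) = 153 ∧ (r = 2 ∨ r = 19)) := by
    intro r hr hrd
    haveI : Fact r.Prime := ⟨hr⟩
    have hm : Nat.card (Sylow r G) ∈ ({18, 136, 153} : Set ℕ) := hNS ▸ ⟨r, hr, hrd, rfl⟩
    have h1 : 1 ≡ Nat.card (Sylow r G) [MOD r] := (card_sylow_modEq_one r G).symm
    have h2 := (Nat.modEq_iff_dvd' (Nat.card_pos)).1 h1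
    simp only [Set.mem_insert_iff, Set.mem_singleton_iff] at hm
    have hd : ∀ N : ℕ, r ∣ N → r ∈ N.divisors ∨ N = 0 := fun N h => by
      rcases eq_or_ne N 0 with h0 | h0
      · exact Or.inr h0
      · exact Or.inl (Nat.mem_divisors.2 ⟨h, h0⟩)
    rcases hm with h | h | h <;> rw [h] at h2 ⊢
    · refine Or.inl ⟨rfl, ?_⟩
      exact (Nat.prime_dvd_prime_iff_eq hr (by norm_num)).1 h2
    · refine Or.inr (Or.inl ⟨rfl, ?_⟩)
      have h5 : r ∣ 3 ^ 3 * 5 := by simpa using h2
      rcases (Nat.Prime.dvd_mul hr).1 h5 with h6 | h6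
      · exact Or.inl ((Nat.prime_dvd_prime_iff_eq hr (by norm_num)).1 (hr.dvd_of_dvd_pow h6))
      · exact Or.inr ((Nat.prime_dvd_prime_iff_eq hr (by norm_num)).1 h6)
    · refine Or.inr (Or.inr ⟨rfl, ?_⟩)
      have h5 : r ∣ 2 ^ 3 * 19 := by simpa using h2
      rcases (Nat.Prime.dvd_mul hr).1 h5 with h6 | h6
      · exact Or.inl ((Nat.prime_dvd_prime_iff_eq hr (by norm_num)).1 (hr.dvd_of_dvd_pow h6))
      · exact Or.inr ((Nat.prime_dvd_prime_iff_eq hr (by norm_num)).1 h6)
  have h17 : 17 ∣ Nat.card G ∧ Nat.card (Sylow 17 G) = 18 := by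
    obtain ⟨r, hr, hrd, he⟩ : (18 : ℕ) ∈ {c : ℕ | ∃ r : ℕ, r.Prime ∧ r ∣ Nat.card G ∧
        c = Nat.card (Sylow r G)} := by rw [hNS]; simp
    rcases hpr r hr hrd with ⟨h, rfl⟩ | ⟨h, -⟩ | ⟨h, -⟩
    · exact ⟨hrd, h⟩
    · omega
    · omega
  have hdvd : ∀ r : ℕ, r.Prime → r ∣ 18 → r ∣ Nat.card G := fun r _ h => by
    rw [← h17.2] at h
    exact h.trans ((Classical.arbitrary (Sylow 17 G)).card_dvd_index.trans
      (Subgroup.index_dvd_card _))
  have hn2 : Nat.card (Sylow 2 G) = 153 := by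
    rcases hpr 2 Nat.prime_two (hdvd 2 Nat.prime_two (by norm_num)) with
      ⟨-, h⟩ | ⟨-, h⟩ | ⟨h, -⟩
    · omega
    · omega
    · exact h
  have hn3 : Nat.card (Sylow 3 G) = 136 := by
    rcases hpr 3 Nat.prime_three (hdvd 3 Nat.prime_three (by norm_num)) with
      ⟨-, h⟩ | ⟨h, -⟩ | ⟨-, h⟩
    · omega
    · exact h
    · omega
  -- the action on the 18 Sylow 17-subgroups
  let φ₀ : G →* Equiv.Perm (Sylow 17 G) := MulAction.toPermHom G (Sylow 17 G)
  let X : Subgroup (Equiv.Perm (Sylow 17 G)) := φ₀.range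
  let f : G →* ↥X := φ₀.rangeRestrict
  have hf : Function.Surjective f := φ₀.rangeRestrict_surjective
  have hfix : ∀ P : Sylow 17 G, ∀ x ∈ (P : Subgroup G), x • P = P := fun P x hx => by
    exact Sylow.smul_eq_iff_mem_normalizer.2 (Subgroup.le_normalizer hx)
  have htrans : ∀ P Q R : Sylow 17 G, Q ≠ P → R ≠ P →
      ∃ x ∈ (P : Subgroup G), x • Q = R := by
    intro P Q R hQ hR
    haveI := Fintype.ofFinite (Sylow 17 G)
    set O : Set (Sylow 17 G) := MulAction.orbit ↥(P : Subgroup G) Q with hO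
    have hOsub : O ⊆ {P}ᶜ := by
      rintro _ ⟨x, rfl⟩ (e : (x : G) • Q = P)
      exact hQ (MulAction.injective (x : G) (e.trans (hfix P x x.2).symm))
    obtain ⟨j, hj⟩ := P.2.card_orbit Q
    have hle : Nat.card ↥O ≤ 17 := by
      have := Set.ncard_le_ncard hOsub (Set.toFinite _)
      rw [Set.ncard_compl, Set.ncard_singleton, h17.2, ← Nat.card_coe_set_eq] at this
      exact this
    have hj1 : j ≠ 0 := by
      intro h0
      rw [h0, pow_zero] at hj
      have hss : Subsingleton ↥O := (Nat.card_eq_one_iff_unique.1 hj).1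
      refine hQ (Sylow.ext ?_)
      have hle' : (P : Subgroup G) ≤ Q := by
        refine P.2.sylow_mem_fixedPoints_iff.1 fun x => ?_
        exact congrArg Subtype.val (Subsingleton.elim
          (⟨x • Q, MulAction.mem_orbit Q x⟩ : ↥O) ⟨Q, MulAction.mem_orbit_self Q⟩)
      exact P.3 Q.2 hle'
    have hOeq : O = {P}ᶜ := by
      refine Set.eq_of_subset_of_ncard_le hOsub ?_ (Set.toFinite _)
      rw [Set.ncard_compl, Set.ncard_singleton, h17.2, ← Nat.card_coe_set_eq, hj]
      calc (18 - 1 : ℕ) = 17 ^ 1 := by norm_num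
        _ ≤ 17 ^ j := Nat.pow_le_pow_right (by norm_num) (Nat.pos_of_ne_zero hj1)
    have : R ∈ O := by rw [hOeq]; exact hR
    obtain ⟨x, hx⟩ := this
    exact ⟨x, x.2, hx⟩
  have hsmul : ∀ (g : G) (Q : Sylow 17 G), f g • Q = g • Q := fun g Q => rfl
  have hUcard : ∀ P : Sylow 17 G, Nat.card ↥((P : Subgroup G).map f) = 17 := by
    intro P
    haveI : Fintype (Sylow 17 G) := Fintype.ofFinite _
    obtain ⟨j, hj⟩ := (P.2.map f).exists_card_eq
    have hd : 17 ^ j ∣ Nat.card (Equiv.Perm (Sylow 17 G)) :=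
      hj ▸ (Subgroup.card_subgroup_dvd_card _).trans (Subgroup.card_subgroup_dvd_card X)
    rw [Nat.card_perm, h17.2] at hd
    rcases j with _ | _ | j
    · exfalso
      haveI : Nontrivial (Sylow 17 G) := Finite.one_lt_card_iff_nontrivial.1 (by rw [h17.2]; norm_num)
      obtain ⟨Q, hQ⟩ := exists_ne P
      haveI : Fintype (Sylow 17 G) := Fintype.ofFinite _
      obtain ⟨R, hR⟩ : ∃ R : Sylow 17 G, R ∉ ({P, Q} : Finset (Sylow 17 G)) := by
        by_contra hcon
        push Not at hcon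
        have hall' : (Finset.univ : Finset (Sylow 17 G)) ⊆ {P, Q} := fun R _ => hcon R
        have h1 := Finset.card_le_card hall'
        have h2 : ({P, Q} : Finset (Sylow 17 G)).card ≤ 2 := Finset.card_le_two
        rw [Finset.card_univ, ← Nat.card_eq_fintype_card, h17.2] at h1
        omega
      simp only [Finset.mem_insert, Finset.mem_singleton, not_or] at hR
      obtain ⟨x, hx, hxQ⟩ := htrans P Q R hQ hR.1
      rw [pow_zero, Subgroup.card_eq_one] at hj
      have : f x = 1 := by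
        have : f x ∈ (P : Subgroup G).map f := Subgroup.mem_map_of_mem f hx
        rwa [hj, Subgroup.mem_bot] at this
      apply hR.2
      rw [← hxQ, ← hsmul, this, one_smul]
    · rw [hj]; norm_num
    · exfalso
      have : 17 ^ 2 ∣ Nat.factorial 18 := (pow_dvd_pow 17 (by omega)).trans hd
      revert this
      decide
  let D : Data ↥X (Sylow 17 G) :=
    { faithful := fun g hg => Subtype.ext (Equiv.Perm.ext fun x => hg x)
      card18 := h17.2
      U := fun P => (P : Subgroup G).map f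
      card_U := hUcard
      fix := by
        rintro P _ ⟨x, hx, rfl⟩
        exact hfix P x hx
      trans := fun P Q R hQ hR => by
        obtain ⟨x, hx, e⟩ := htrans P Q R hQ hR
        exact ⟨f x, Subgroup.mem_map_of_mem f hx, e⟩
      conj := by
        rintro y P _ ⟨x, hx, rfl⟩
        obtain ⟨g, rfl⟩ := hf y
        rw [← map_inv, ← map_mul, ← map_mul]
        refine Subgroup.mem_map_of_mem f ?_
        show g * x * g⁻¹ ∈ ((g • P : Sylow 17 G) : Subgroup G)
        rw [Sylow.coe_subgroup_smul, Subgroup.mem_pointwise_smul_iff_inv_smul_mem]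
        have e : g⁻¹ * (g * x * g⁻¹) * g = x := by group
        rw [← map_inv, MulAut.smul_def, MulAut.conj_apply, inv_inv, e]
        exact hx }
  obtain ⟨a⟩ := (inferInstance : Nonempty (Sylow 17 G))
  obtain ⟨b, hb, -⟩ := D.exists_other a a
  -- identification of the image
  haveI : Fintype (Sylow 17 G) := Fintype.ofFinite _
  let e17 : ZMod 17 ≃+* F := FiniteField.ringEquivOfCardEq (by rw [hF, ZMod.card])
  have hX : (Nonempty (↥X ≃* Matrix.ProjectiveSpecialLinearGroup (Fin 2) F) ∨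
      Nonempty (↥X ≃* Matrix.ProjGenLinGroup (Fin 2) F)) := by
    rcases D.card_H hb with h8 | h16
    · left
      obtain ⟨p, k, L, _, _, -, -, hL, h18, ⟨e⟩⟩ := S0742.result (G := ↥X) (Ω := Sylow 17 G)
        D.zassenhaus hb.symm (by rw [show Nat.card _ = 8 from h8]; decide)
        (by rw [show Nat.card _ = 8 from h8, ← Nat.card_eq_fintype_card, h17.2])
      have h18' : p ^ k + 1 = 18 := by rw [← h18, ← Nat.card_eq_fintype_card, h17.2]
      let eF : L ≃+* F := FiniteField.ringEquivOfCardEq (by rw [hL, hF]; omega)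
      exact ⟨e.trans (QuotientGroup.congr _ _ (slEquiv eF)
        (map_center_equiv _))⟩
    · right
      have h3 : IsMultiplyPretransitive ↥X (Sylow 17 G) 3 := D.three_pretransitive hb h16
      obtain ⟨L, _, _, hL, ⟨e⟩⟩ := S0730.result (p := 17) (f := 1) (by norm_num) (by norm_num)
        odd_one (α := Sylow 17 G) (by rw [← Nat.card_eq_fintype_card, h17.2]; norm_num) X h3 (fun x => by
          rw [Subgroup.eq_bot_iff_forall]
          intro h hh
          have e : ∀ i, h • x i = x i := fun i => DFunLike.congr_fun hh i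
          exact D.three (x.injective.ne (by decide : (1 : Fin 3) ≠ 0))
            (x.injective.ne (by decide : (2 : Fin 3) ≠ 0))
            (x.injective.ne (by decide : (1 : Fin 3) ≠ 2)) (e 0) (e 1) (e 2))
      let eF : L ≃+* F := FiniteField.ringEquivOfCardEq (by rw [hL, hF]; norm_num)
      let eGL : GL (Fin 2) L ≃* GL (Fin 2) F := Units.mapEquiv eF.mapMatrix.toMulEquiv
      exact ⟨e.trans (QuotientGroup.congr _ _ eGL (map_center_equiv _))⟩
  obtain ⟨x9, hx9⟩ : ∃ x : ↥X, orderOf x = 9 := by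
    rcases hX with ⟨⟨e⟩⟩ | ⟨⟨e⟩⟩
    · obtain ⟨y, hy⟩ := exists_order_nine_psl F e17.toRingHom
      exact ⟨e.symm y, by rw [MulEquiv.orderOf_eq, hy]⟩
    · obtain ⟨y, hy⟩ := exists_order_nine_pgl F e17.toRingHom
      exact ⟨e.symm y, by rw [MulEquiv.orderOf_eq, hy]⟩
  have hX3 : Nat.card (Sylow 3 ↥X) = 136 :=
    D.card_sylow_three x9 hx9 (hn3 ▸ card_sylow_le_of_surjective hf 3)
  -- the kernel
  set K : Subgroup G := f.ker with hK
  have hnorm17 : ∀ P : Sylow 17 G, K ≤ normalizer ((P : Subgroup G) : Set G) := by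
    intro P k hk
    exact Sylow.smul_eq_iff_mem_normalizer.1 (by rw [← hsmul, show f k = 1 from hk, one_smul])
  have hprimes : ∀ r : ℕ, r.Prime → r ∣ Nat.card G → r = 2 ∨ r = 3 ∨ r = 17 := by
    intro r hr hrd
    haveI : Fact r.Prime := ⟨hr⟩
    by_contra hcon
    push Not at hcon
    obtain ⟨hr2, hr3, hr17⟩ := hcon
    obtain ⟨hr', hn⟩ : (r = 5 ∨ r = 19) ∧
        (Nat.card (Sylow r G) = 136 ∨ Nat.card (Sylow r G) = 153) := by
      rcases hpr r hr hrd with ⟨-, h⟩ | ⟨h, h'⟩ | ⟨h, h'⟩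
      · exact absurd h hr17
      · exact ⟨by omega, Or.inl h⟩
      · exact ⟨by omega, Or.inr h⟩
    obtain ⟨U⟩ := (inferInstance : Nonempty (Sylow r G))
    have hUK : (U : Subgroup G) ≤ K := by
      intro u hu
      rw [hK, MonoidHom.mem_ker]
      by_contra hne
      have h2 : r ∣ orderOf (f u) := by
        obtain ⟨n, hn⟩ := U.2 ⟨u, hu⟩
        have : orderOf (f u) ∣ r ^ n := orderOf_dvd_of_pow_eq_one (by
          rw [← map_pow]; rw [show u ^ r ^ n = 1 from congrArg Subtype.val hn, map_one])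
        obtain ⟨m, -, hm⟩ := (Nat.dvd_prime_pow hr).1 this
        rcases m with _ | m
        · exact absurd (orderOf_eq_one_iff.1 (by simpa using hm)) hne
        · rw [hm]; exact dvd_pow_self r (Nat.succ_ne_zero m)
      have h3 : r ∣ 306 * Nat.card ↥(Data.H (X := ↥X) a b) :=
        D.card_eq hb ▸ h2.trans (orderOf_dvd_natCard (f u))
      rcases D.card_H hb with hh | hh <;> rw [show Nat.card _ = _ from hh] at h3 <;>
        rcases hr' with rfl | rfl <;> norm_num at h3
    set N := normalizer ((U : Subgroup G) : Set G) with hN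
    have hNn : Nat.card ↥N * Nat.card (Sylow r G) = Nat.card G := by
      rw [Sylow.card_eq_index_normalizer U]; exact Subgroup.card_mul_index N
    -- a Sylow 17-subgroup of the normalizer
    obtain ⟨D₀⟩ := (inferInstance : Nonempty (Sylow 17 ↥N))
    let D1 : Subgroup G := (D₀ : Subgroup ↥N).map N.subtype
    have hD1c : Nat.card ↥D1 = 17 ^ (Nat.card ↥N).factorization 17 := by
      rw [Subgroup.card_map_of_injective N.subtype_injective, Sylow.card_eq_multiplicity]
    obtain ⟨P, hDP⟩ := (D₀.2.map N.subtype).exists_le_sylow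
    have hUP : (U : Subgroup G) ≤ normalizer ((P : Subgroup G) : Set G) := hUK.trans (hnorm17 P)
    have hPc : Nat.card ↥(P : Subgroup G) = 17 ^ (Nat.card G).factorization 17 :=
      Sylow.card_eq_multiplicity P
    have hfac : (Nat.card G).factorization 17 = (Nat.card ↥N).factorization 17 + 1 := by
      rw [← hNn, Nat.factorization_mul Nat.card_pos.ne' Nat.card_pos.ne', Finsupp.add_apply]
      congr 1
      rcases hn with h | h <;> rw [h]
      · rw [show (136 : ℕ) = 17 ^ 1 * 8 by norm_num, Nat.factorization_mul (by norm_num)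
          (by norm_num), Finsupp.add_apply, Nat.Prime.factorization_pow f17.out]
        simp [Nat.factorization_eq_zero_of_not_dvd (show ¬ 17 ∣ 8 by norm_num)]
      · rw [show (153 : ℕ) = 17 ^ 1 * 9 by norm_num, Nat.factorization_mul (by norm_num)
          (by norm_num), Finsupp.add_apply, Nat.Prime.factorization_pow f17.out]
        simp [Nat.factorization_eq_zero_of_not_dvd (show ¬ 17 ∣ 9 by norm_num)]
    let ψ : ↥(U : Subgroup G) →* MulAut ↥(P : Subgroup G) :=
      (P : Subgroup G).normalizerMonoidHom.comp (Subgroup.inclusion hUP)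
    letI : MulAction ↥(U : Subgroup G) ↥(P : Subgroup G) := MulAction.compHom _ ψ
    have hψ : ∀ (u : ↥(U : Subgroup G)) (x : ↥(P : Subgroup G)),
        ((u • x : ↥(P : Subgroup G)) : G) = u * x * (u : G)⁻¹ := fun u x => rfl
    let C : Subgroup G := (P : Subgroup G) ⊓ Subgroup.centralizer ((U : Subgroup G) : Set G)
    have hcfix : Nat.card (MulAction.fixedPoints ↥(U : Subgroup G) ↥(P : Subgroup G)) =
        Nat.card ↥C := by
      refine Nat.card_congr ⟨fun x => ⟨x.1, x.1.2, fun u hu => ?_⟩, fun x => ⟨⟨x.1, x.2.1⟩,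
        fun u => Subtype.ext ?_⟩, fun x => rfl, fun x => rfl⟩
      · have := congrArg Subtype.val (x.2 ⟨u, hu⟩)
        rw [hψ] at this
        exact mul_inv_eq_iff_eq_mul.1 this
      · rw [hψ]
        exact mul_inv_eq_iff_eq_mul.2 (x.2.2 u u.2)
    have hC : Nat.card ↥C = Nat.card ↥D1 := by
      refine le_antisymm ?_ (Subgroup.card_le_of_le ?_)
      · have hCN : C ≤ N := fun x hx => (Subgroup.centralizer_le_normalizer _) hx.2
        obtain ⟨n, hn'⟩ := (P.2.to_le inf_le_left : IsPGroup 17 ↥C).exists_card_eq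
        rw [hn', hD1c]
        refine Nat.pow_le_pow_right (by norm_num) ?_
        exact (f17.out.pow_dvd_iff_le_factorization Nat.card_pos.ne').1
          (hn' ▸ Subgroup.card_dvd_of_le hCN)
      · intro x hx
        have hxN : x ∈ N := Subgroup.map_subtype_le _ hx
        refine ⟨hDP hx, fun u hu => ?_⟩
        have h1 : x * u * x⁻¹ * u⁻¹ ∈ (U : Subgroup G) := comm_mem hxN hu
        have h2 : x * u * x⁻¹ * u⁻¹ ∈ (P : Subgroup G) := by
          have : u * x⁻¹ * u⁻¹ ∈ (P : Subgroup G) :=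
            (Subgroup.mem_normalizer_iff.1 (hUP hu) _).1 (Subgroup.inv_mem _ (hDP hx))
          simpa [mul_assoc] using (P : Subgroup G).mul_mem (hDP hx) this
        have h3 := eq_one_of_isPGroup hr17 U.2 P.2 h1 h2
        rw [mul_inv_eq_one, mul_inv_eq_iff_eq_mul] at h3
        exact h3.symm
    have hmod := U.2.card_modEq_card_fixedPoints (α := ↥(P : Subgroup G))
    rw [hcfix, hC, hD1c, hPc, hfac, pow_succ] at hmod
    have h4 : r ∣ 17 ^ (Nat.card ↥N).factorization 17 * 17 - 17 ^ (Nat.card ↥N).factorization 17 :=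
      (Nat.modEq_iff_dvd' (Nat.le_mul_of_pos_right _ (by norm_num))).1 hmod.symm
    rw [← Nat.mul_sub_one] at h4
    rcases (Nat.Prime.dvd_mul hr).1 h4 with h5 | h5
    · exact hr17 ((Nat.prime_dvd_prime_iff_eq hr f17.out).1 (hr.dvd_of_dvd_pow h5))
    · rcases hr' with rfl | rfl <;> norm_num at h5
  have hall : ∀ s : ℕ, s.Prime → s ∣ Nat.card G → ∀ S : Sylow s G,
      K ≤ normalizer ((S : Subgroup G) : Set G) := by
    intro s hs hsd S k hk
    rcases hprimes s hs hsd with rfl | rfl | rfl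
    · exact Sylow.smul_eq_iff_mem_normalizer.1
        (smul_eq_of_card_eq hf (by rw [hn2, D.card_sylow_two]) hk S)
    · exact Sylow.smul_eq_iff_mem_normalizer.1
        (smul_eq_of_card_eq hf (by rw [hn3, hX3]) hk S)
    · exact hnorm17 S hk
  have hKbot : K = ⊥ := by
    rw [← Subgroup.card_eq_one]
    by_contra hne
    obtain ⟨r, hr, hrd⟩ := Nat.exists_prime_and_dvd hne
    haveI : Fact r.Prime := ⟨hr⟩
    have hrG : r ∣ Nat.card G := hrd.trans (Subgroup.card_subgroup_dvd_card K)
    obtain ⟨x, hx⟩ := exists_prime_orderOf_dvd_card' (G := ↥K) r hrd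
    have hp : IsPGroup r ↥(Subgroup.zpowers (x : G)) :=
      IsPGroup.of_card (n := 1) (by rw [Nat.card_zpowers, Subgroup.orderOf_coe, hx, pow_one])
    obtain ⟨S, hS⟩ := hp.exists_le_sylow
    have : (x : G) ∈ K ⊓ (S : Subgroup G) := ⟨x.2, hS (Subgroup.mem_zpowers _)⟩
    rw [inf_sylow_eq_bot K hZ hall hrG S, Subgroup.mem_bot] at this
    rw [Subtype.ext this (a2 := (1 : ↥K)), orderOf_one] at hx
    exact hr.ne_one hx.symm
  have hinj : Function.Injective f := (MonoidHom.ker_eq_bot_iff f).1 (hK ▸ hKbot)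
  let eG : G ≃* ↥X := MulEquiv.ofBijective f ⟨hinj, hf⟩
  rcases hX with ⟨⟨e⟩⟩ | ⟨⟨e⟩⟩
  · exact Or.inl ⟨eG.trans e⟩
  · exact Or.inr ⟨eG.trans e⟩

end Main

end Cfsg.Agent.SylowNum17
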