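import Cfsg.Prelude.Def_LieExceptional
import Mathlib.GroupTheory.Sylow
import Mathlib.GroupTheory.Perm.Sign
import Mathlib.GroupTheory.Subgroup.Centralizer
import Mathlib.GroupTheory.SpecificGroups.Cyclic
import Cfsg.Agent.Perm.Basic
import Cfsg.Agent.PermB.ZassPrelude

/-!
Permutation groups of degree 18 with 18 Sylow 17-subgroups, one for each point.
-/

set_option autoImplicit false

namespace Cfsg.Agent.SylowNum17

open MulAction Subgroup

/-- A faithful group on 18 points in which each point stabiliser has a normal subgroup of order 17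
which is transitive on the other points. -/
structure Data (X α : Type*) [Group X] [MulAction X α] where
  faithful : ∀ g : X, (∀ x : α, g • x = x) → g = 1
  card18 : Nat.card α = 18
  U : α → Subgroup X
  card_U : ∀ a, Nat.card ↥(U a) = 17
  fix : ∀ a, ∀ u ∈ U a, u • a = a
  trans : ∀ a b c : α, b ≠ a → c ≠ a → ∃ u ∈ U a, u • b = c
  conj : ∀ (g : X) (a : α), ∀ u ∈ U a, g * u * g⁻¹ ∈ U (g • a)

namespace Data

variable {X α : Type*} [Group X] [Finite X] [MulAction X α] [Finite α] (D : Data X α)

/-- The stabiliser of two points. -/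
abbrev H (a b : α) : Subgroup X := stabilizer X a ⊓ stabilizer X b

include D

theorem exists_other (a b : α) : ∃ c : α, c ≠ a ∧ c ≠ b := by
  classical
  haveI := Fintype.ofFinite α
  by_contra h
  have hsub : (Finset.univ : Finset α) ⊆ {a, b} := fun c _ => by
    by_contra hc
    simp only [Finset.mem_insert, Finset.mem_singleton, not_or] at hc
    exact h ⟨c, hc⟩
  have h1 := Finset.card_le_card hsub
  have h2 : ({a, b} : Finset α).card ≤ 2 := Finset.card_le_two
  have := D.card18
  rw [Finset.card_univ, ← Nat.card_eq_fintype_card, this] at h1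
  omega

theorem bijective_smul {a b : α} (hb : b ≠ a) :
    Function.Bijective (fun u : ↥(D.U a) => (⟨(u : X) • b, fun e => hb (by
      have := congrArg ((u : X)⁻¹ • ·) e
      simpa [D.fix a _ ((D.U a).inv_mem u.2)] using this)⟩ : {x : α // x ≠ a})) := by
  have hs : Function.Surjective (fun u : ↥(D.U a) => (⟨(u : X) • b, fun e => hb (by
      have := congrArg ((u : X)⁻¹ • ·) e
      simpa [D.fix a _ ((D.U a).inv_mem u.2)] using this)⟩ : {x : α // x ≠ a})) := fun x => by
    obtain ⟨u, hu, hub⟩ := D.trans a b x.1 hb x.2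
    exact ⟨⟨u, hu⟩, Subtype.ext hub⟩
  refine hs.bijective_of_nat_card_le ?_
  classical
  haveI := Fintype.ofFinite α
  rw [D.card_U a, Nat.card_eq_fintype_card, Fintype.card_subtype_compl,
    Fintype.card_subtype_eq, ← Nat.card_eq_fintype_card, D.card18]

theorem free {a b : α} (hb : b ≠ a) {u v : X} (hu : u ∈ D.U a) (hv : v ∈ D.U a)
    (h : u • b = v • b) : u = v :=
  congrArg Subtype.val ((D.bijective_smul hb).1 (Subtype.ext h :
    (⟨(⟨u, hu⟩ : ↥(D.U a)).1 • b, _⟩ : {x : α // x ≠ a}) = ⟨(⟨v, hv⟩ : ↥(D.U a)).1 • b, _⟩))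

theorem two_trans {a b c d : α} (hab : a ≠ b) (hcd : c ≠ d) :
    ∃ g : X, g • a = c ∧ g • b = d := by
  obtain ⟨e, hea, hec⟩ := D.exists_other a c
  obtain ⟨u, -, hua⟩ := D.trans e a c hea.symm hec.symm
  have hub : u • b ≠ c := fun h => hab (MulAction.injective u (hua.trans h.symm))
  obtain ⟨v, hv, hvb⟩ := D.trans c (u • b) d hub hcd.symm
  exact ⟨v * u, by rw [mul_smul, hua, D.fix c v hv], by rw [mul_smul, hvb]⟩

theorem two_pretransitive : IsMultiplyPretransitive X α 2 :=
  is_two_pretransitive_iff.2 fun h h' => D.two_trans h h'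

theorem pretransitive : IsPretransitive X α := by
  refine ⟨fun a b => ?_⟩
  obtain ⟨e, hea, heb⟩ := D.exists_other a b
  obtain ⟨u, -, hu⟩ := D.trans e a b hea.symm heb.symm
  exact ⟨u, hu⟩

/-- An element fixing three points is trivial. -/
theorem three {a b c : α} (hb : b ≠ a) (hc : c ≠ a) (hbc : b ≠ c) {h : X} (ha : h • a = a)
    (hhb : h • b = b) (hhc : h • c = c) : h = 1 := by
  obtain ⟨u, hu, hub⟩ := D.trans a b c hb hc
  have hu1 : u ≠ 1 := fun e => hbc (by rw [← hub, e, one_smul])
  have hhu : h * u * h⁻¹ ∈ D.U a := by simpa [ha] using D.conj h a u hu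
  have hbinv : h⁻¹ • b = b := by rw [inv_smul_eq_iff, hhb]
  have e : h * u * h⁻¹ = u := D.free hb hhu hu (by rw [mul_smul, mul_smul, hbinv, hub, hhc])
  haveI : Fact (Nat.Prime 17) := ⟨by norm_num⟩
  have hgen : D.U a = Subgroup.zpowers u := by
    refine (Subgroup.eq_of_le_of_card_ge (by simpa using hu) ?_).symm
    have hdvd : orderOf u ∣ 17 := by
      rw [← D.card_U a]; exact Subgroup.orderOf_dvd_natCard _ hu
    rcases (Nat.dvd_prime (by norm_num)).1 hdvd with h1 | h1
    · exact absurd (orderOf_eq_one_iff.1 h1) hu1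
    · rw [D.card_U a, Nat.card_zpowers, h1]
  have hcomm : Commute h u := by
    show h * u = u * h
    calc h * u = h * u * h⁻¹ * h := by group
      _ = u * h := by rw [e]
  refine D.faithful h fun x => ?_
  rcases eq_or_ne x a with rfl | hx
  · exact ha
  · obtain ⟨v, hv, hvx⟩ := D.trans a b x hb hx
    rw [hgen, Subgroup.mem_zpowers_iff] at hv
    obtain ⟨k, rfl⟩ := hv
    rw [← hvx, ← mul_smul, (hcomm.zpow_right k).eq, mul_smul, hhb]

/-- Conjugation of a two-point stabiliser on the group of order 17. -/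
theorem H_le_normalizer (a b : α) : H (X := X) a b ≤ normalizer (D.U a : Set X) := by
  intro h hh
  have ha : h • a = a := hh.1
  have ha' : h⁻¹ • a = a := by rw [inv_smul_eq_iff, ha]
  rw [Subgroup.mem_normalizer_iff]
  intro u
  constructor
  · intro hu
    simpa [ha] using D.conj h a u hu
  · intro hu
    have := D.conj h⁻¹ a _ hu
    simpa [ha', mul_assoc] using this

theorem exists_injective_mulAut {a b : α} (hb : b ≠ a) :
    ∃ ρ : ↥(H (X := X) a b) →* MulAut ↥(D.U a), Function.Injective ρ := by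
  refine ⟨(D.U a).normalizerMonoidHom.comp (Subgroup.inclusion (D.H_le_normalizer a b)), ?_⟩
  rw [← MonoidHom.ker_eq_bot_iff, Subgroup.eq_bot_iff_forall]
  intro h hh
  rw [MonoidHom.mem_ker, MonoidHom.comp_apply, ← MonoidHom.mem_ker, normalizerMonoidHom_ker,
    Subgroup.mem_subgroupOf, Subgroup.mem_centralizer_iff] at hh
  apply Subtype.ext
  refine D.faithful _ fun x => ?_
  rcases eq_or_ne x a with rfl | hx
  · exact h.2.1
  · obtain ⟨v, hv, hvx⟩ := D.trans a b x hb hx
    have := hh v hv
    simp only [Subgroup.coe_inclusion] at this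
    have hhb : (h : X) • b = b := h.2.2
    rw [← hvx, ← mul_smul, ← this, mul_smul, hhb]

theorem isCyclic_H {a b : α} (hb : b ≠ a) :
    IsCyclic ↥(H (X := X) a b) ∧ Nat.card ↥(H (X := X) a b) ∣ 16 := by
  haveI : Fact (Nat.Prime 17) := ⟨by norm_num⟩
  haveI : IsCyclic ↥(D.U a) := isCyclic_of_prime_card (D.card_U a)
  obtain ⟨ρ, hρ⟩ := D.exists_injective_mulAut hb
  have hc : Nat.card (MulAut ↥(D.U a)) = 16 := by
    rw [IsCyclic.card_mulAut, D.card_U a]
    exact Nat.totient_prime (by norm_num)
  haveI : IsCyclic (ZMod (Nat.card ↥(D.U a)))ˣ := by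
    rw [D.card_U a]; infer_instance
  haveI : IsCyclic (MulAut ↥(D.U a)) :=
    isCyclic_of_surjective (IsCyclic.mulAutMulEquiv ↥(D.U a)).symm.toMonoidHom
      (IsCyclic.mulAutMulEquiv ↥(D.U a)).symm.surjective
  exact ⟨isCyclic_of_injective ρ hρ, hc ▸ Subgroup.card_dvd_of_injective ρ hρ⟩

theorem card_stabilizer {a b : α} (hb : b ≠ a) :
    Nat.card ↥(stabilizer X a) = 17 * Nat.card ↥(H (X := X) a b) := by
  have hmem : ∀ p : ↥(D.U a) × ↥(H (X := X) a b), (p.1 : X) * (p.2 : X) ∈ stabilizer X a :=
    fun p => Subgroup.mul_mem _ (D.fix a _ p.1.2) p.2.2.1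
  let f : ↥(D.U a) × ↥(H (X := X) a b) → ↥(stabilizer X a) :=
    fun p => ⟨(p.1 : X) * (p.2 : X), hmem p⟩
  have hf : Function.Bijective f := by
    constructor
    · rintro ⟨u, h⟩ ⟨v, k⟩ e
      have e' : (u : X) * h = (v : X) * k := congrArg Subtype.val e
      have hhb : (h : X) • b = b := h.2.2
      have hkb : (k : X) • b = b := k.2.2
      have huv : (u : X) = v := D.free hb u.2 v.2 (by
        have := congrArg (· • b) e'
        simpa [mul_smul, hhb, hkb] using this)
      rw [huv] at e'
      exact Prod.ext (Subtype.ext huv) (Subtype.ext (mul_left_cancel e'))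
    · intro g
      have hga : (g : X) • a = a := g.2
      have hgb : (g : X) • b ≠ a := fun e => hb (MulAction.injective (g : X) (e.trans hga.symm))
      obtain ⟨u, hu, hub⟩ := D.trans a b _ hb hgb
      have hua : u⁻¹ • a = a := D.fix a _ (Subgroup.inv_mem _ hu)
      refine ⟨⟨⟨u, hu⟩, ⟨u⁻¹ * g, ?_, ?_⟩⟩, Subtype.ext (mul_inv_cancel_left u g)⟩
      · show (u⁻¹ * (g : X)) • a = a
        rw [mul_smul, hga, hua]
      · show (u⁻¹ * (g : X)) • b = b
        rw [mul_smul, ← hub, inv_smul_smul]
  rw [← Nat.card_congr (Equiv.ofBijective f hf), Nat.card_prod, D.card_U a]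

theorem card_eq {a b : α} (hb : b ≠ a) :
    Nat.card X = 306 * Nat.card ↥(H (X := X) a b) := by
  haveI := D.pretransitive
  rw [← Subgroup.card_mul_index (stabilizer X a), index_stabilizer_of_transitive, D.card18,
    D.card_stabilizer hb]
  ring

theorem card_H_ne_one {a b : α} (hb : b ≠ a) : Nat.card ↥(H (X := X) a b) ≠ 1 := by
  classical
  haveI := Fintype.ofFinite α
  intro h1
  have hbot : H (X := X) a b = ⊥ := Subgroup.card_eq_one.1 h1
  -- no non-identity element fixes two points
  have hfix : ∀ g : X, ∀ c d : α, c ≠ d → g • c = c → g • d = d → g = 1 := by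
    intro g c d hcd hgc hgd
    obtain ⟨t, htc, htd⟩ := D.two_trans hcd hb.symm
    have hmem : t * g * t⁻¹ ∈ H (X := X) a b := by
      constructor
      · show (t * g * t⁻¹) • a = a
        rw [← htc, mul_smul, inv_smul_smul, mul_smul, hgc]
      · show (t * g * t⁻¹) • b = b
        rw [← htd, mul_smul, inv_smul_smul, mul_smul, hgd]
    rw [hbot, Subgroup.mem_bot] at hmem
    simpa [mul_inv_eq_one] using hmem
  obtain ⟨t, hta, htb⟩ := D.two_trans hb.symm hb
  have ht1 : t ≠ 1 := fun e => hb (by rw [← hta, e, one_smul])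
  have htt : t * t = 1 := hfix _ a b hb.symm (by rw [mul_smul, hta, htb]) (by rw [mul_smul, htb, hta])
  let σ : Equiv.Perm α := MulAction.toPermHom X α t
  have hσ2 : orderOf σ = 2 := by
    refine orderOf_eq_prime (by rw [← map_pow, pow_two, htt, map_one]) ?_
    intro e
    exact ht1 (D.faithful t fun x => Equiv.Perm.ext_iff.1 e x)
  have hσ : σ ^ 2 = 1 := by rw [← hσ2, pow_orderOf_eq_one]
  -- no fixed point
  have hsup : σ.support = Finset.univ := by
    refine Finset.eq_univ_iff_forall.2 fun x => Equiv.Perm.mem_support.2 fun hx => ?_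
    -- the fixed points of an involution on 18 points are even in number
    have hpar := Equiv.Perm.two_dvd_card_support hσ
    have hle : (σ.supportᶜ).card ≤ 1 := by
      rw [Finset.card_le_one]
      intro c hc d hd
      rw [Finset.mem_compl, Equiv.Perm.mem_support, not_not] at hc hd
      by_contra hcd
      exact ht1 (hfix t c d hcd hc hd)
    have hge : 1 ≤ (σ.supportᶜ).card := Finset.card_pos.2 ⟨x, by
      rw [Finset.mem_compl, Equiv.Perm.mem_support, not_not]; exact hx⟩
    have := Finset.card_compl σ.support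
    have h18 := D.card18
    rw [Nat.card_eq_fintype_card] at h18
    have := Finset.card_le_univ σ.support
    omega
  let s : X →* ℤˣ := Equiv.Perm.sign.comp (MulAction.toPermHom X α)
  have hst : s t = -1 := by
    show Equiv.Perm.sign σ = -1
    have hct : σ.cycleType = Multiset.replicate 9 2 := by
      obtain ⟨n, hn⟩ := Equiv.Perm.cycleType_prime_order (σ := σ) (by rw [hσ2]; norm_num)
      rw [hσ2] at hn
      have := Equiv.Perm.sum_cycleType σ
      rw [hn, Multiset.sum_replicate, hsup, Finset.card_univ, ← Nat.card_eq_fintype_card,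
        D.card18] at this
      simp only [smul_eq_mul] at this
      rw [hn, show n + 1 = 9 by omega]
    rw [Equiv.Perm.sign_of_cycleType, hct]
    simp [pow_succ]
  -- all groups of order 17 are in the kernel, which is transitive
  have hU : ∀ e : α, ∀ u ∈ D.U e, u ∈ s.ker := by
    intro e u hu
    have h17 : u ^ 17 = 1 := by
      have := pow_card_eq_one' (G := ↥(D.U e)) (x := ⟨u, hu⟩)
      rw [D.card_U e] at this
      exact congrArg Subtype.val this
    rw [MonoidHom.mem_ker]
    have := congrArg s h17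
    rw [map_pow, map_one] at this
    rcases Int.units_eq_one_or (s u) with h | h
    · exact h
    · rw [h] at this; exact absurd this (by decide)
  haveI : IsPretransitive ↥s.ker α := ⟨fun x y => by
    obtain ⟨e, hex, hey⟩ := D.exists_other x y
    obtain ⟨u, hu, huxy⟩ := D.trans e x y hex.symm hey.symm
    exact ⟨⟨u, hU e u hu⟩, huxy⟩⟩
  have h18 : 18 ∣ Nat.card ↥s.ker := by
    rw [← Subgroup.card_mul_index (stabilizer ↥s.ker a), index_stabilizer_of_transitive, D.card18]
    exact dvd_mul_left _ _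
  have hidx : s.ker.index = 2 := by
    rw [Subgroup.index_ker]
    have : s.range = ⊤ := by
      rw [eq_top_iff]
      intro z _
      rcases Int.units_eq_one_or z with rfl | rfl
      · exact one_mem _
      · exact ⟨t, hst⟩
    rw [this, Subgroup.card_top, Nat.card_eq_fintype_card]
    rfl
  have := Subgroup.card_mul_index s.ker
  rw [hidx, D.card_eq hb, h1] at this
  omega

theorem zassenhaus : Cfsg.IsZassenhausGroup X α := by
  classical
  haveI := Fintype.ofFinite α
  obtain ⟨a, -⟩ : ∃ a : α, True := by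
    have : Nonempty α := (Nat.card_pos_iff.1 (by rw [D.card18]; norm_num)).1
    exact ⟨Classical.arbitrary α, trivial⟩
  obtain ⟨b, hb, -⟩ := D.exists_other a a
  refine ⟨⟨fun {g k} h => ?_⟩, D.two_pretransitive, ?_, ?_, ?_⟩
  · exact inv_mul_eq_one.1 (D.faithful (k⁻¹ * g) fun x => by rw [mul_smul, h, inv_smul_smul])
      |>.symm
  · intro g x y z hxy hyz hxz hx hy hz
    exact D.three hxy.symm hxz.symm hyz hx hy hz
  · have h1 := D.card_H_ne_one hb
    rw [Ne, Subgroup.card_eq_one, ← Ne, Subgroup.ne_bot_iff_exists_ne_one] at h1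
    obtain ⟨h, hh⟩ := h1
    exact ⟨h, fun e => hh (Subtype.ext e), a, b, hb.symm, h.2.1, h.2.2⟩
  · intro N hN htN
    by_contra hne
    push Not at hne
    have h18 : Nat.card ↥N = 18 := by
      have := Subgroup.card_mul_index (stabilizer ↥N a)
      rw [index_stabilizer_of_transitive, hne a, Subgroup.card_bot, one_mul, D.card18] at this
      exact this.symm
    haveI : Fact (Nat.Prime 2) := ⟨by norm_num⟩
    haveI : Fact (Nat.Prime 3) := ⟨by norm_num⟩
    obtain ⟨x, hx⟩ := exists_prime_orderOf_dvd_card' (G := ↥N) 2 (by rw [h18]; norm_num)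
    obtain ⟨y, hy⟩ := exists_prime_orderOf_dvd_card' (G := ↥N) 3 (by rw [h18]; norm_num)
    have hinj : ∀ m k : ↥N, m • a = k • a → m = k := by
      intro m k e
      have : k⁻¹ * m ∈ stabilizer ↥N a := by
        rw [mem_stabilizer_iff, mul_smul, e, inv_smul_smul]
      rw [hne a, Subgroup.mem_bot, inv_mul_eq_one] at this
      exact this.symm
    have hxa : (x : X) • a ≠ a := fun e => by
      have := hinj x 1 (by rw [one_smul]; exact e)
      rw [this, orderOf_one] at hx; norm_num at hx
    have hya : (y : X) • a ≠ a := fun e => by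
      have := hinj y 1 (by rw [one_smul]; exact e)
      rw [this, orderOf_one] at hy; norm_num at hy
    obtain ⟨u, hu, huxy⟩ := D.trans a _ _ hxa hya
    have hua : u⁻¹ • a = a := D.fix a _ (Subgroup.inv_mem _ hu)
    have hz : (⟨u * x * u⁻¹, hN.conj_mem _ x.2 u⟩ : ↥N) = y := by
      refine hinj _ _ ?_
      show (u * (x : X) * u⁻¹) • a = (y : X) • a
      rw [mul_smul, hua, mul_smul, huxy]
    have h2 : orderOf (y : X) = orderOf (x : X) := by
      rw [← congrArg Subtype.val hz]
      exact MulEquiv.orderOf_eq (MulAut.conj u) (x : X)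
    rw [Subgroup.orderOf_coe, Subgroup.orderOf_coe, hx, hy] at h2
    norm_num at h2

theorem card_H {a b : α} (hb : b ≠ a) :
    Nat.card ↥(H (X := X) a b) = 8 ∨ Nat.card ↥(H (X := X) a b) = 16 := by
  have h16 := (D.isCyclic_H hb).2
  have h1 := D.card_H_ne_one hb
  have hz := PermB.zData_of_isZassenhausGroup D.zassenhaus
  have h3 : 3 ≤ Nat.card α := by rw [D.card18]; norm_num
  have hev : Even (Nat.card ↥(H (X := X) a b)) := by
    obtain ⟨k, hk, hkd⟩ := (Nat.dvd_prime_pow Nat.prime_two (i := Nat.card ↥(H (X := X) a b))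
      (m := 4)).1 h16
    rw [hkd] at h1 ⊢
    rcases k with _ | k
    · simp at h1
    · exact (Nat.even_pow).2 ⟨even_two, by omega⟩
  have hle : Nat.card α - 2 ≤ 2 * Nat.card ↥(H (X := X) a b) :=
    hz.card_sub_two_le_two_mul hb.symm h3 hev
  rw [D.card18] at hle
  have hle16 := Nat.le_of_dvd (by norm_num) h16
  interval_cases h : Nat.card ↥(H (X := X) a b) <;> omega

theorem three_pretransitive {a b : α} (hb : b ≠ a) (h16 : Nat.card ↥(H (X := X) a b) = 16) :
    IsMultiplyPretransitive X α 3 := by
  classical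
  haveI := Fintype.ofFinite α
  -- the stabiliser of two points is transitive on the others
  have key : ∀ p q x y : α, p ≠ q → x ≠ p → x ≠ q → y ≠ p → y ≠ q →
      ∃ h : X, h • p = p ∧ h • q = q ∧ h • x = y := by
    intro p q x y hpq hxp hxq hyp hyq
    have hcard : Nat.card ↥(H (X := X) p q) = 16 := by
      have e1 := D.card_eq hpq.symm
      rw [D.card_eq hb, h16] at e1
      omega
    let f : ↥(H (X := X) p q) → {z : α // z ≠ p ∧ z ≠ q} := fun h => ⟨(h : X) • x,
      fun e => hxp (MulAction.injective (h : X) (e.trans (show (h : X) • p = p from h.2.1).symm)),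
      fun e => hxq (MulAction.injective (h : X) (e.trans (show (h : X) • q = q from h.2.2).symm))⟩
    have hinj : Function.Injective f := by
      intro h k e
      have e' : (h : X) • x = (k : X) • x := congrArg Subtype.val e
      have hx : ((k⁻¹ * h : ↥(H (X := X) p q)) : X) • x = x := by
        rw [Subgroup.coe_mul, Subgroup.coe_inv, mul_smul, e', inv_smul_smul]
      have hm := (k⁻¹ * h : ↥(H (X := X) p q)).2
      have h1 := D.three hpq.symm hxp hxq.symm hm.1 hm.2 hx
      exact (inv_mul_eq_one.1 (Subtype.ext h1)).symm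
    have hc : Nat.card {z : α // z ≠ p ∧ z ≠ q} ≤ 16 := by
      rw [Nat.card_eq_fintype_card, Fintype.card_subtype]
      have hsub : (Finset.univ.filter fun z : α => z ≠ p ∧ z ≠ q) =
          ((Finset.univ : Finset α).erase p).erase q := by
        ext z; simp [and_comm]
      rw [hsub, Finset.card_erase_of_mem (Finset.mem_erase.2 ⟨hpq.symm, Finset.mem_univ _⟩),
        Finset.card_erase_of_mem (Finset.mem_univ _), Finset.card_univ,
        ← Nat.card_eq_fintype_card, D.card18]
    obtain ⟨h, hh⟩ := (hinj.bijective_of_nat_card_le (by rw [hcard]; exact hc)).2 ⟨y, hyp, hyq⟩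
    exact ⟨h, h.2.1, h.2.2, congrArg Subtype.val hh⟩
  rw [PermLib.three_pretransitive_iff]
  intro p q r p' q' r' hpq hpr hqr hpq' hpr' hqr'
  obtain ⟨g, hgp, hgq⟩ := D.two_trans hpq hpq'
  obtain ⟨h, h1, h2, h3⟩ := key p' q' (g • r) r' hpq'
    (fun e => hpr (MulAction.injective g (hgp.trans e.symm)))
    (fun e => hqr (MulAction.injective g (hgq.trans e.symm))) hpr'.symm hqr'.symm
  exact ⟨h * g, by rw [mul_smul, hgp, h1], by rw [mul_smul, hgq, h2], by rw [mul_smul, h3]⟩

/-- A Sylow 2-subgroup is the stabiliser of a pair of points and is self-normalising. -/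
theorem card_sylow_two : Nat.card (Sylow 2 X) = 153 := by
  classical
  haveI := Fintype.ofFinite α
  haveI : Fact (Nat.Prime 2) := ⟨by norm_num⟩
  obtain ⟨a⟩ : Nonempty α := (Nat.card_pos_iff.1 (by rw [D.card18]; norm_num)).1
  obtain ⟨b, hb, -⟩ := D.exists_other a a
  let T : Subgroup X :=
    { carrier := {g | (g • a = a ∧ g • b = b) ∨ (g • a = b ∧ g • b = a)}
      one_mem' := Or.inl ⟨one_smul _ _, one_smul _ _⟩
      mul_mem' := by
        rintro g k (⟨h1, h2⟩ | ⟨h1, h2⟩) (⟨h3, h4⟩ | ⟨h3, h4⟩) <;>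
          simp only [Set.mem_setOf_eq, mul_smul, h3, h4, h1, h2] <;> simp
      inv_mem' := by
        rintro g (⟨h1, h2⟩ | ⟨h1, h2⟩) <;>
          simp only [Set.mem_setOf_eq, inv_smul_eq_iff, h1, h2] <;> simp }
  have hTmem : ∀ g : X, g ∈ T ↔ (g • a = a ∧ g • b = b) ∨ (g • a = b ∧ g • b = a) :=
    fun g => Iff.rfl
  obtain ⟨w, hwa, hwb⟩ := D.two_trans hb.symm hb
  set d := Nat.card ↥(H (X := X) a b) with hd
  have hcT : Nat.card ↥T = 2 * d := by
    let f : Bool × ↥(H (X := X) a b) → ↥T := fun p =>
      if p.1 then ⟨w * p.2, Or.inr ⟨by rw [mul_smul, show (p.2 : X) • a = a from p.2.2.1, hwa],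
          by rw [mul_smul, show (p.2 : X) • b = b from p.2.2.2, hwb]⟩⟩
      else ⟨p.2, Or.inl ⟨p.2.2.1, p.2.2.2⟩⟩
    have hf : Function.Bijective f := by
      constructor
      · rintro ⟨i, h⟩ ⟨j, k⟩ e
        have e' := congrArg (fun g : ↥T => (g : X) • a) e
        have hha : (h : X) • a = a := h.2.1
        have hka : (k : X) • a = a := k.2.1
        cases i <;> cases j <;> simp [f, mul_smul, hha, hka, hwa, hb, hb.symm] at e' e ⊢
        all_goals first | exact e | exact Subtype.ext e
      · rintro ⟨g, hg | hg⟩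
        · exact ⟨⟨false, ⟨g, hg⟩⟩, by simp [f]⟩
        · refine ⟨⟨true, ⟨w⁻¹ * g, ?_, ?_⟩⟩, by simp [f]⟩
          · show (w⁻¹ * g) • a = a
            rw [mul_smul, hg.1, inv_smul_eq_iff, hwa]
          · show (w⁻¹ * g) • b = b
            rw [mul_smul, hg.2, inv_smul_eq_iff, hwb]
    rw [← Nat.card_congr (Equiv.ofBijective f hf), Nat.card_prod, Nat.card_eq_fintype_card,
      Fintype.card_bool]
  have hdc := D.card_H hb
  have hTp : IsPGroup 2 ↥T := by
    rcases hdc with h | h
    · exact IsPGroup.of_card (n := 4) (by rw [hcT, hd, h]; norm_num)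
    · exact IsPGroup.of_card (n := 5) (by rw [hcT, hd, h]; norm_num)
  have hTi : T.index = 153 := by
    have := Subgroup.card_mul_index T
    rw [hcT, D.card_eq hb, ← hd] at this
    have hd0 : 0 < d := Nat.card_pos
    nlinarith [this, hd0]
  let S : Sylow 2 X := hTp.toSylow (by rw [hTi]; norm_num)
  rw [Sylow.card_eq_index_normalizer S]
  suffices hN : normalizer (T : Set X) = T by
    show (normalizer (T : Set X)).index = 153
    rw [hN, hTi]
  refine le_antisymm (fun g hg => ?_) Subgroup.le_normalizer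
  obtain ⟨h, hgen⟩ := (D.isCyclic_H hb).1.exists_generator
  have hord : orderOf h = d := orderOf_eq_card_of_forall_mem_zpowers hgen
  set k : X := (h : X) ^ 2 with hk
  have hk1 : k ≠ 1 := by
    intro e
    have : orderOf h ∣ 2 := orderOf_dvd_of_pow_eq_one (Subtype.ext (by simpa [hk] using e))
    rw [hord] at this
    have := Nat.le_of_dvd (by norm_num) this
    omega
  have hha : (h : X) • a = a := h.2.1
  have hhb : (h : X) • b = b := h.2.2
  have hka : k • a = a := by rw [hk, pow_two, mul_smul, hha, hha]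
  have hkb : k • b = b := by rw [hk, pow_two, mul_smul, hhb, hhb]
  have hin : g⁻¹ * (h : X) * g ∈ T := by
    have := (Subgroup.mem_normalizer_iff.1 (Subgroup.inv_mem _ hg) (h : X)).1
      ((hTmem _).2 (Or.inl ⟨hha, hhb⟩))
    simpa using this
  have hsq : ∀ x ∈ ({a, b} : Set α), (g⁻¹ * k * g) • x = x := by
    intro x hx
    have e : g⁻¹ * k * g = (g⁻¹ * (h : X) * g) * (g⁻¹ * (h : X) * g) := by rw [hk, pow_two]; group
    rw [e, mul_smul]
    rcases hin with ⟨h1, h2⟩ | ⟨h1, h2⟩ <;> rcases hx with rfl | rfl <;> simp only [h1, h2]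
  have hgx : ∀ x ∈ ({a, b} : Set α), g • x = a ∨ g • x = b := by
    intro x hx
    by_contra hne
    rw [not_or] at hne
    have e : k • (g • x) = g • x := by
      have := congrArg (g • ·) (hsq x hx)
      simpa [mul_smul, smul_inv_smul] using this
    exact hk1 (D.three hb hne.1 (fun e' => hne.2 e'.symm) hka hkb e)
  rcases hgx a (Or.inl rfl) with h1 | h1 <;> rcases hgx b (Or.inr rfl) with h2 | h2
  · exact absurd (MulAction.injective g (h1.trans h2.symm)) hb.symm
  · exact Or.inl ⟨h1, h2⟩
  · exact Or.inr ⟨h1, h2⟩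
  · exact absurd (MulAction.injective g (h1.trans h2.symm)) hb.symm

/-- If an element of order 9 exists and there are at most 136 Sylow 3-subgroups, there are 136. -/
theorem card_sylow_three (x : X) (hx : orderOf x = 9) (hle : Nat.card (Sylow 3 X) ≤ 136) :
    Nat.card (Sylow 3 X) = 136 := by
  classical
  haveI := Fintype.ofFinite α
  haveI : Fact (Nat.Prime 3) := ⟨by norm_num⟩
  obtain ⟨a⟩ : Nonempty α := (Nat.card_pos_iff.1 (by rw [D.card18]; norm_num)).1
  obtain ⟨b, hb, -⟩ := D.exists_other a a
  haveI := D.pretransitive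
  set d := Nat.card ↥(H (X := X) a b) with hd
  have hdc : d = 8 ∨ d = 16 := D.card_H hb
  have hst : ∀ c : α, Nat.card ↥(stabilizer X c) = 17 * d := by
    intro c
    have := Subgroup.card_mul_index (stabilizer X c)
    rw [index_stabilizer_of_transitive, D.card18, D.card_eq hb, ← hd] at this
    omega
  -- the powers of `x` below the ninth fix no point
  have hfree : ∀ i : ℕ, 0 < i → i < 9 → ∀ c : α, x ^ i • c ≠ c := by
    intro i hi hi9 c hc
    have h1 : orderOf (x ^ i) ∣ 17 * d := hst c ▸ Subgroup.orderOf_dvd_natCard _ hc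
    have h2 : orderOf (x ^ i) ∣ 9 := hx ▸ orderOf_pow_dvd i
    have h3 : orderOf (x ^ i) = 1 := Nat.dvd_one.1 (by
      rcases hdc with h | h <;> rw [h] at h1 <;> simpa using Nat.dvd_gcd h2 h1)
    have := orderOf_dvd_of_pow_eq_one (orderOf_eq_one_iff.1 h3)
    rw [hx] at this
    exact absurd (Nat.le_of_dvd hi this) (by omega)
  have hQc : Nat.card ↥(Subgroup.zpowers x) = 9 := by rw [Nat.card_zpowers, hx]
  have hQi : (Subgroup.zpowers x).index = 34 * d := by
    have := Subgroup.card_mul_index (Subgroup.zpowers x)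
    rw [hQc, D.card_eq hb, ← hd] at this
    omega
  let S : Sylow 3 X := (IsPGroup.of_card (n := 2) (by rw [hQc]; norm_num) :
    IsPGroup 3 ↥(Subgroup.zpowers x)).toSylow (by rw [hQi]; rcases hdc with h | h <;> rw [h] <;> norm_num)
  set N := normalizer ((Subgroup.zpowers x : Subgroup X) : Set X) with hN
  set n := Nat.card (Sylow 3 X) with hn
  have hnN : n = N.index := Sylow.card_eq_index_normalizer S
  have hdvd : n ∣ 34 * d := hQi ▸ Sylow.card_dvd_index S
  have hmod : n % 3 = 1 := card_sylow_modEq_one 3 X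
  have hNc : Nat.card ↥N * n = 306 * d := by
    rw [hnN, Subgroup.card_mul_index, D.card_eq hb]
  -- an element of the normalizer fixing a point and centralizing `x` is trivial
  have hcent : ∀ c : α, ∀ h : X, h • c = c → Commute h x → h = 1 := by
    intro c h hc hcomm
    have e : ∀ i : ℕ, h • (x ^ i • c) = x ^ i • c := fun i => by
      rw [← mul_smul, (hcomm.pow_right i).eq, mul_smul, hc]
    refine D.three (a := c) (b := x ^ 1 • c) (c := x ^ 2 • c) (hfree 1 (by norm_num) (by norm_num) c)
      (hfree 2 (by norm_num) (by norm_num) c) ?_ hc (e 1) (e 2)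
    intro eq
    rw [show (2 : ℕ) = 1 + 1 from rfl, pow_add, mul_smul] at eq
    exact hfree 1 (by norm_num) (by norm_num) c (MulAction.injective (x ^ 1) eq).symm
  haveI hQcyc : IsCyclic ↥(Subgroup.zpowers x) := inferInstance
  have haut : Nat.card (MulAut ↥(Subgroup.zpowers x)) = 6 := by
    rw [IsCyclic.card_mulAut, hQc]
    decide
  let ρ : ↥N →* MulAut ↥(Subgroup.zpowers x) := (Subgroup.zpowers x).normalizerMonoidHom
  have hker : ∀ h : ↥N, ρ h = 1 → Commute (h : X) x := by
    intro h hh
    have : h ∈ ρ.ker := hh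
    rw [show ρ.ker = _ from normalizerMonoidHom_ker (H := Subgroup.zpowers x),
      Subgroup.mem_subgroupOf, Subgroup.mem_centralizer_iff] at this
    exact (this x (Subgroup.mem_zpowers x)).symm
  -- the stabiliser in `N` of a point is small
  let A : Subgroup ↥N := stabilizer ↥N a
  have hA6 : Nat.card ↥A ∣ 6 := by
    rw [← haut]
    refine Subgroup.card_dvd_of_injective (ρ.comp A.subtype) ?_
    rw [← MonoidHom.ker_eq_bot_iff, Subgroup.eq_bot_iff_forall]
    intro h hh
    apply Subtype.ext
    apply Subtype.ext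
    exact hcent a _ h.2 (hker _ hh)
  have hA17 : Nat.card ↥A ∣ 17 * d := by
    rw [← hst a]
    refine Subgroup.card_dvd_of_injective ((N.subtype.comp A.subtype).codRestrict (stabilizer X a)
      fun h => h.2) ?_
    intro h k e
    have e' := congrArg (fun z : ↥(stabilizer X a) => (z : X)) e
    exact Subtype.ext (Subtype.ext e')
  have hA2 : Nat.card ↥A ≤ 2 := by
    have := Nat.dvd_gcd hA6 hA17
    rcases hdc with h | h <;> rw [h] at this <;> exact Nat.le_of_dvd (by norm_num) this
  have horb : A.index ≤ 18 := by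
    rw [index_stabilizer, ← D.card18, ← Nat.card_coe_set_eq]
    exact Finite.card_subtype_le _
  have hNle : Nat.card ↥N ≤ 36 := by
    rw [← Subgroup.card_mul_index A]
    calc Nat.card ↥A * A.index ≤ 2 * 18 := Nat.mul_le_mul hA2 horb
      _ = 36 := rfl
  have hn34 : n ∈ (Finset.Icc 1 136).filter (fun m => m ∣ 34 * d ∧ m % 3 = 1) := by
    simp only [Finset.mem_filter, Finset.mem_Icc]
    exact ⟨⟨Nat.card_pos, hle⟩, hdvd, hmod⟩
  have hset : (Finset.Icc 1 136).filter (fun m => m ∣ 34 * d ∧ m % 3 = 1) ⊆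
      ({1, 4, 16, 34, 136} : Finset ℕ) := by
    rcases hdc with h | h <;> rw [h] <;> decide
  have := hset hn34
  simp only [Finset.mem_insert, Finset.mem_singleton] at this
  have h8 : 8 ≤ d := by omega
  rcases this with h | h | h | h | h <;> rw [h] at hNc ⊢ <;> omega

end Data

end Cfsg.Agent.SylowNum17
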